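import Cfsg.Agent.H419.EP.Targets
import Cfsg.Agent.ClassicalGeometry.SympBasic

/-!
# S3499, III-Sp-C8 (helper673)

`O^±(2k, q) < Sp(2k, q)`, `q ≥ 4` even, is no stabiliser in an extremely primitive group.

* `kill_M0` : `g ∈ Â` normalising `Â ∩ Â^x` lies in `Â^x`;
* `hat_eq` : `Â ≤ M`, not `S ≤ M` ⇒ `Â = M ∩ S`;
* `mkGL` : the matrix of a linear automorphism;
* `spC8` : for a singular vector `w` and the transvection `x` with centre `w`, `Â ∩ Â^x` is the stabiliser of the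
  vector `w` in `Â = O(Qf)`, and it is normalised by an element `g` with `g w = c w`, `c ≠ 1`.
-/

set_option autoImplicit false

namespace Cfsg.Agent.H673.EP

open Subgroup Cfsg.Agent.H284 Cfsg.Agent.H419.EP
open scoped MatrixGroups Matrix

section gen

variable {Q : Type*} [Group Q] [Finite Q] {A : Subgroup Q} {Γ : Subgroup (MulAut Q)} (h : EPT A Γ)
variable {ι : Type} [Fintype ι] [DecidableEq ι] {F : Type*} [Field F] {S : Subgroup (GL ι F)} (m : Model Q S)

include h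

/-- **Kill criterion for `M̂0` itself** -/
theorem kill_M0 {x : GL ι F} (hxS : x ∈ S) (hx : x ∉ m.hat A) {g : GL ι F} (hg : g ∈ m.hat A)
    (hgK : ∀ k, k ∈ m.hat A → x⁻¹ * k * x ∈ m.hat A → x⁻¹ * (g * k * g⁻¹) * x ∈ m.hat A) :
    x⁻¹ * g * x ∈ m.hat A := by
  rw [← mem_cj]
  refine kill_char h m hxS hx (m.hat A ⊓ cj x (m.hat A)) le_rfl ?_ ?_ hg ?_
  · intro hle
    obtain ⟨s, hs, hs1⟩ := exists_nonscalar h m hxS hx
    exact hs1 (hle hs)
  · rw [← M0_eq_map m hxS, Subgroup.subgroupOf_self]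
    infer_instance
  · intro k hk
    have hk1 : k ∈ m.hat A := (mem_inf.1 hk).1
    exact mem_inf.2 ⟨(m.hat A).mul_mem ((m.hat A).mul_mem hg hk1) ((m.hat A).inv_mem hg),
      mem_cj.2 (hgK k hk1 (mem_cj.1 (mem_inf.1 hk).2))⟩

omit [Finite Q] in
/-- `Â` is the intersection with `S` of every subgroup that contains it and does not contain `S`. -/
theorem hat_eq {M : Subgroup (GL ι F)} (hA : m.hat A ≤ M) {x : GL ι F} (hxS : x ∈ S) (hxM : x ∉ M) :
    m.hat A = M ⊓ S := by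
  rcases (m.isMaximalIn h.max).2 (M ⊓ S) (le_inf hA (m.hat_le A)) inf_le_right with h1 | h1
  · exact h1.symm
  · exfalso
    apply hxM
    have : x ∈ M ⊓ S := by rw [h1]; exact hxS
    exact this.1

end gen

section mk

variable {ι : Type} [Fintype ι] [DecidableEq ι] {F : Type*} [Field F]

/-- the matrix of a linear automorphism -/
noncomputable def mkGL (a b : (ι → F) →ₗ[F] (ι → F)) (h1 : ∀ v, a (b v) = v) (h2 : ∀ v, b (a v) = v) : GL ι F where
  val := LinearMap.toMatrix' a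
  inv := LinearMap.toMatrix' b
  val_inv := by
    rw [← LinearMap.toMatrix'_comp, ← LinearMap.toMatrix'_one]
    congr 1
    exact LinearMap.ext h1
  inv_val := by
    rw [← LinearMap.toMatrix'_comp, ← LinearMap.toMatrix'_one]
    congr 1
    exact LinearMap.ext h2

theorem mkGL_mulVec (a b : (ι → F) →ₗ[F] (ι → F)) (h1 : ∀ v, a (b v) = v) (h2 : ∀ v, b (a v) = v) (v : ι → F) :
    ((mkGL a b h1 h2 : GL ι F) : Matrix ι ι F) *ᵥ v = a v := LinearMap.toMatrix'_mulVec a v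

theorem mkGL_inv_mulVec (a b : (ι → F) →ₗ[F] (ι → F)) (h1 : ∀ v, a (b v) = v) (h2 : ∀ v, b (a v) = v) (v : ι → F) :
    (((mkGL a b h1 h2)⁻¹ : GL ι F) : Matrix ι ι F) *ᵥ v = b v := LinearMap.toMatrix'_mulVec b v

end mk

section C8

open Cfsg.Agent.ClassicalGeometry.SympBasic

variable {F : Type*} [Field F] {k : ℕ}

local notation "V" => (Fin k ⊕ Fin k → F)

/-- the transvection `v ↦ v + a f(v, w) w` -/
noncomputable def tvL (w : V) (a : F) : V →ₗ[F] V :=
  LinearMap.id + (a • (sympBilin k F).flip w).smulRight w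

theorem tvL_apply (w : V) (a : F) (v : V) : tvL w a v = v + (a * Cfsg.sympForm k F v w) • w := rfl

theorem tvL_tvL (w : V) (a b : F) (v : V) : tvL w a (tvL w b v) = tvL w (a + b) v := by
  rw [tvL_apply, tvL_apply, tvL_apply, sympForm_add_left, sympForm_smul_left, sympForm_self, mul_zero, add_zero,
    add_assoc, ← add_smul]
  congr 2
  ring

theorem tvL_zero (w v : V) : tvL w 0 v = v := by
  rw [tvL_apply, zero_mul, zero_smul, add_zero]

/-- the transvection -/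
noncomputable def tvG (w : V) (a : F) : GL (Fin k ⊕ Fin k) F :=
  mkGL (tvL w a) (tvL w (-a)) (fun v => by rw [tvL_tvL, add_neg_cancel, tvL_zero])
    (fun v => by rw [tvL_tvL, neg_add_cancel, tvL_zero])

theorem tvG_mulVec (w : V) (a : F) (v : V) :
    ((tvG w a : GL (Fin k ⊕ Fin k) F) : Matrix _ _ F) *ᵥ v = v + (a * Cfsg.sympForm k F v w) • w := by
  rw [tvG, mkGL_mulVec, tvL_apply]

theorem tvG_inv_mulVec (w : V) (a : F) (v : V) :
    (((tvG w a)⁻¹ : GL (Fin k ⊕ Fin k) F) : Matrix _ _ F) *ᵥ v = v + (-a * Cfsg.sympForm k F v w) • w := by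
  rw [tvG, mkGL_inv_mulVec, tvL_apply]

theorem mem_spGL {g : GL (Fin k ⊕ Fin k) F} : g ∈ Cfsg.spGL k F ↔
    ∀ u v, Cfsg.sympForm k F ((g : Matrix _ _ F) *ᵥ u) ((g : Matrix _ _ F) *ᵥ v) = Cfsg.sympForm k F u v := Iff.rfl

theorem tvG_mem (w : V) (a : F) : tvG w a ∈ Cfsg.spGL k F := by
  rw [mem_spGL]
  intro u v
  rw [tvG_mulVec, tvG_mulVec, sympForm_add_left, sympForm_add_right, sympForm_add_right, sympForm_smul_left,
    sympForm_smul_left, sympForm_smul_right, sympForm_smul_right, sympForm_self, sympForm_swap w v]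
  ring

/-- the hyperbolic element `w ↦ c w`, `w' ↦ c⁻¹ w'` for `f(w, w') = 1` -/
noncomputable def hyL (w w' : V) (c : F) : V →ₗ[F] V :=
  LinearMap.id + ((c - 1) • (sympBilin k F).flip w').smulRight w -
    ((c⁻¹ - 1) • (sympBilin k F).flip w).smulRight w'

theorem hyL_apply (w w' : V) (c : F) (v : V) : hyL w w' c v =
    v + ((c - 1) * Cfsg.sympForm k F v w') • w - ((c⁻¹ - 1) * Cfsg.sympForm k F v w) • w' := rfl

theorem hyL_hyL {w w' : V} (hw : Cfsg.sympForm k F w w' = 1) {c : F} (hc : c ≠ 0) (v : V) :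
    hyL w w' c (hyL w w' c⁻¹ v) = v := by
  have hw' : Cfsg.sympForm k F w' w = -1 := by rw [sympForm_swap, hw]
  rw [hyL_apply, hyL_apply]
  simp only [sympForm_add_left, sympForm_sub_left, sympForm_smul_left, sympForm_self, hw, hw', inv_inv]
  funext i
  simp only [Pi.add_apply, Pi.sub_apply, Pi.smul_apply, smul_eq_mul]
  field_simp
  ring

/-- the hyperbolic element -/
noncomputable def hyG {w w' : V} (hw : Cfsg.sympForm k F w w' = 1) {c : F} (hc : c ≠ 0) : GL (Fin k ⊕ Fin k) F :=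
  mkGL (hyL w w' c) (hyL w w' c⁻¹) (fun v => hyL_hyL hw hc v)
    (fun v => by have := hyL_hyL hw (inv_ne_zero hc) v; rwa [inv_inv] at this)

theorem hyG_mulVec {w w' : V} (hw : Cfsg.sympForm k F w w' = 1) {c : F} (hc : c ≠ 0) (v : V) :
    ((hyG hw hc : GL (Fin k ⊕ Fin k) F) : Matrix _ _ F) *ᵥ v =
      v + ((c - 1) * Cfsg.sympForm k F v w') • w - ((c⁻¹ - 1) * Cfsg.sympForm k F v w) • w' := by
  rw [hyG, mkGL_mulVec, hyL_apply]

theorem hyG_mem {w w' : V} (hw : Cfsg.sympForm k F w w' = 1) {c : F} (hc : c ≠ 0) : hyG hw hc ∈ Cfsg.spGL k F := by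
  have hw' : Cfsg.sympForm k F w' w = -1 := by rw [sympForm_swap, hw]
  rw [mem_spGL]
  intro u v
  rw [hyG_mulVec, hyG_mulVec]
  simp only [sympForm_add_left, sympForm_sub_left, sympForm_smul_left, sympForm_add_right, sympForm_sub_right,
    sympForm_smul_right, sympForm_self, hw, hw']
  rw [sympForm_swap w v, sympForm_swap w' v]
  field_simp
  ring

/-- a quadratic form with polar form `f` -/
structure IsQ (Qf : V → F) : Prop where
  smul : ∀ (c : F) (v : V), Qf (c • v) = c ^ 2 * Qf v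
  add : ∀ u v : V, Qf (u + v) = Qf u + Qf v + Cfsg.sympForm k F u v

theorem isQ_of {Qf : V → F} (h1 : Cfsg.Geo.IsNondegenerateQuadraticForm Qf)
    (h2 : ∀ u v, QuadraticMap.polar Qf u v = Cfsg.sympForm k F u v) : IsQ Qf := by
  refine ⟨h1.smul, fun u v => ?_⟩
  rw [← h2 u v, QuadraticMap.polar]
  ring

theorem IsQ.zero {Qf : V → F} (hQ : IsQ Qf) : Qf 0 = 0 := by
  have := hQ.smul 0 0
  rwa [zero_smul, zero_pow two_ne_zero, zero_mul] at this

/-- elements of `Sp ∩ quadSimilarityGroup Qf` are isometries of `Qf` -/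
theorem IsQ.isom {Qf : V → F} (hQ : IsQ Qf) (hk : 1 ≤ k) {g : GL (Fin k ⊕ Fin k) F}
    (hg : g ∈ Cfsg.Geo.quadSimilarityGroup Qf ⊓ Cfsg.spGL k F) (v : V) : Qf ((g : Matrix _ _ F) *ᵥ v) = Qf v := by
  obtain ⟨⟨c, hc⟩, hg2⟩ := mem_inf.1 hg
  rw [mem_spGL] at hg2
  have key : ∀ u v : V, Cfsg.sympForm k F u v = c * Cfsg.sympForm k F u v := by
    intro u v
    have h1 := hQ.add ((g : Matrix _ _ F) *ᵥ u) ((g : Matrix _ _ F) *ᵥ v)
    rw [← Matrix.mulVec_add, hc, hc, hc, hQ.add u v, hg2] at h1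
    linear_combination -h1
  have h2 := key (Pi.single (Sum.inr ⟨0, hk⟩) 1) (Pi.single (Sum.inl ⟨0, hk⟩) 1)
  have h3 : Cfsg.sympForm k F (Pi.single (Sum.inr ⟨0, hk⟩) 1) (Pi.single (Sum.inl ⟨0, hk⟩) 1) = 1 := by
    rw [sympForm_single_inr_left, Pi.single_eq_same]
  rw [h3, mul_one] at h2
  rw [hc, ← h2, one_mul]

theorem IsQ.mem {Qf : V → F} {g : GL (Fin k ⊕ Fin k) F} (h1 : ∀ v : V, Qf ((g : Matrix _ _ F) *ᵥ v) = Qf v)
    (h2 : g ∈ Cfsg.spGL k F) : g ∈ Cfsg.Geo.quadSimilarityGroup Qf ⊓ Cfsg.spGL k F :=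
  mem_inf.2 ⟨⟨1, fun v => by rw [h1, Units.val_one, one_mul]⟩, h2⟩

/-- singular vectors exist in dimension at least 3 -/
theorem IsQ.exists_singular [Fintype F] {Qf : V → F} (hQ : IsQ Qf) (hk : 2 ≤ k) (h2 : ringChar F = 2) :
    ∃ w : V, w ≠ 0 ∧ Qf w = 0 := by
  set e₁ : V := Pi.single (Sum.inl ⟨0, by omega⟩) 1 with he₁
  set e₂ : V := Pi.single (Sum.inl ⟨1, by omega⟩) 1 with he₂
  have h12 : Cfsg.sympForm k F e₁ e₂ = 0 := by
    rw [he₁, sympForm_single_inl_left, he₂, Pi.single_eq_of_ne (by simp), neg_zero]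
  have hne1 : e₁ ≠ 0 := by
    intro e
    have := congrFun e (Sum.inl ⟨0, by omega⟩)
    rw [he₁, Pi.single_eq_same] at this
    exact one_ne_zero this
  by_cases h1 : Qf e₁ = 0
  · exact ⟨e₁, hne1, h1⟩
  · obtain ⟨a, ha⟩ := FiniteField.isSquare_of_char_two h2 (Qf e₂ / Qf e₁)
    have hchar : (2 : F) = 0 := by
      have := ringChar.Nat.cast_ringChar (R := F)
      rw [h2] at this
      exact_mod_cast this
    refine ⟨a • e₁ + e₂, ?_, ?_⟩
    · intro e
      have := congrFun e (Sum.inl ⟨1, by omega⟩)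
      rw [Pi.add_apply, Pi.smul_apply, he₁, he₂, Pi.single_eq_same, Pi.single_eq_of_ne (by simp), smul_zero,
        zero_add] at this
      exact one_ne_zero this
    · rw [hQ.add, hQ.smul, sympForm_smul_left, h12, mul_zero, add_zero, pow_two, ← ha, div_mul_cancel₀ _ h1]
      linear_combination Qf e₂ * hchar

/-- elements of `Sp` fixing `w` commute with the transvections with centre `w` -/
theorem conj_tvG {g : GL (Fin k ⊕ Fin k) F} (hg : g ∈ Cfsg.spGL k F) {w : V} (hw : (g : Matrix _ _ F) *ᵥ w = w)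
    (a : F) : (tvG w a)⁻¹ * g * tvG w a = g := by
  have h1 : g * tvG w a = tvG w a * g := by
    apply Units.ext
    rw [Units.val_mul, Units.val_mul, ← Matrix.mulVec_injective.eq_iff]
    funext v
    rw [← Matrix.mulVec_mulVec, ← Matrix.mulVec_mulVec, tvG_mulVec, tvG_mulVec, Matrix.mulVec_add,
      Matrix.mulVec_smul, hw]
    have h2 := mem_spGL.1 hg v w
    rw [hw] at h2
    rw [h2]
  rw [mul_assoc, h1, inv_mul_cancel_left]

theorem IsQ.add_smul {Qf : V → F} (hQ : IsQ Qf) {w : V} (hw : Qf w = 0) (v : V) (a : F) :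
    Qf (v + a • w) = Qf v + a * Cfsg.sympForm k F v w := by
  rw [hQ.add, hQ.smul, hw, sympForm_smul_right]
  ring

/-- **III-Sp-C8.** `Â ≤ O(Qf)`, polar form of `Qf` the symplectic form, `q ≥ 4` even. -/
theorem spC8 {Q : Type*} [Group Q] [Finite Q] {A : Subgroup Q} {Γ : Subgroup (MulAut Q)}
    (h : EPT A Γ) {F : Type*} [Field F] [Fintype F] {k : ℕ} (m : Model Q (Cfsg.spGL k F)) (hk : 2 ≤ k)
    (hq : 3 ≤ Fintype.card F) {Qf : (Fin k ⊕ Fin k → F) → F} (hodd : ¬ Odd (Fintype.card F))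
    (hQ1 : Cfsg.Geo.IsNondegenerateQuadraticForm Qf)
    (hQ2 : ∀ u v, QuadraticMap.polar Qf u v = Cfsg.sympForm k F u v)
    (hA : m.hat A ≤ Cfsg.Geo.quadSimilarityGroup Qf ⊓ Cfsg.spGL k F) : False := by
  have hQ := isQ_of hQ1 hQ2
  have hring : ringChar F = 2 := by
    rw [FiniteField.even_card_iff_char_two]
    rw [Nat.not_odd_iff] at hodd
    exact hodd
  have hchar : (2 : F) = 0 := by
    have := ringChar.Nat.cast_ringChar (R := F)
    rw [hring] at this
    exact_mod_cast this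
  obtain ⟨w, hw0, hw⟩ := hQ.exists_singular hk hring
  obtain ⟨u, hu⟩ : ∃ u, Cfsg.sympForm k F w u ≠ 0 := by
    by_contra hcon
    push Not at hcon
    exact hw0 (eq_zero_of_forall_sympForm_right hcon)
  -- the scalar
  obtain ⟨c, hc0, hc1⟩ : ∃ c : F, c ≠ 0 ∧ c ≠ 1 := by
    classical
    have h1 : ({0, 1} : Finset F).card < (Finset.univ : Finset F).card :=
      lt_of_le_of_lt Finset.card_le_two (by rw [Finset.card_univ]; omega)
    obtain ⟨c, hc⟩ := Finset.exists_mem_notMem_of_card_lt_card h1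
    refine ⟨c, fun e => hc.2 ?_, fun e => hc.2 ?_⟩ <;> simp [e]
  -- the hyperbolic pair
  obtain ⟨w', hww, hw'⟩ : ∃ w', Cfsg.sympForm k F w w' = 1 ∧ Qf w' = 0 := by
    set w₁ := (Cfsg.sympForm k F w u)⁻¹ • u with hw₁
    have h1 : Cfsg.sympForm k F w w₁ = 1 := by
      rw [hw₁, sympForm_smul_right, inv_mul_cancel₀ hu]
    have h2 : Cfsg.sympForm k F w₁ w = -1 := by rw [sympForm_swap, h1]
    refine ⟨w₁ + Qf w₁ • w, ?_, ?_⟩
    · rw [sympForm_add_right, sympForm_smul_right _ w w, sympForm_self, mul_zero, add_zero, h1]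
    · rw [hQ.add_smul hw, h2]
      ring
  set g := hyG hww hc0 with hgdef
  have hgw : (g : Matrix _ _ F) *ᵥ w = c • w := by
    rw [hgdef, hyG_mulVec, hww, sympForm_self, mul_zero, zero_smul, sub_zero, mul_one, sub_smul, one_smul,
      add_sub_cancel]
  have hgw' : ((g⁻¹ : GL (Fin k ⊕ Fin k) F) : Matrix _ _ F) *ᵥ w = c⁻¹ • w := by
    have h1 : w = c⁻¹ • ((g : Matrix _ _ F) *ᵥ w) := by rw [hgw, smul_smul, inv_mul_cancel₀ hc0, one_smul]
    conv_lhs => rw [h1]
    rw [Matrix.mulVec_smul, Matrix.mulVec_mulVec, ← Units.val_mul, inv_mul_cancel, Units.val_one,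
      Matrix.one_mulVec]
  have hgM : g ∈ Cfsg.Geo.quadSimilarityGroup Qf ⊓ Cfsg.spGL k F := by
    refine IsQ.mem (fun v => ?_) (hyG_mem hww hc0)
    have e1 : (g : Matrix _ _ F) *ᵥ v = (v + ((c - 1) * Cfsg.sympForm k F v w') • w) +
        (-((c⁻¹ - 1) * Cfsg.sympForm k F v w)) • w' := by
      rw [hgdef, hyG_mulVec, neg_smul, sub_eq_add_neg]
    rw [e1, hQ.add_smul hw', hQ.add_smul hw, sympForm_add_left, sympForm_smul_left, hww]
    have hcc : c * c⁻¹ = 1 := mul_inv_cancel₀ hc0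
    linear_combination (Cfsg.sympForm k F v w' * Cfsg.sympForm k F v w) * ((c - 1) * hchar - hcc)
  -- the transvection
  set x := tvG w (1 : F) with hxdef
  have hxS : x ∈ Cfsg.spGL k F := tvG_mem w 1
  have hxM : x ∉ Cfsg.Geo.quadSimilarityGroup Qf ⊓ Cfsg.spGL k F := by
    intro hx
    apply hu
    have h1 := hQ.isom (by omega) hx u
    rw [hxdef, tvG_mulVec, hQ.add_smul hw, one_mul] at h1
    have h2 : Cfsg.sympForm k F u w * Cfsg.sympForm k F u w = 0 := by linear_combination h1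
    rw [sympForm_swap, mul_self_eq_zero.1 h2, neg_zero]
  have hMeq : m.hat A = Cfsg.Geo.quadSimilarityGroup Qf ⊓ Cfsg.spGL k F := by
    have h1 := hat_eq h m hA hxS hxM
    rwa [inf_assoc, inf_idem] at h1
  -- `M₀` is the stabiliser of `w`
  have key : ∀ κ, κ ∈ m.hat A → x⁻¹ * κ * x ∈ m.hat A → (κ : Matrix _ _ F) *ᵥ w = w := by
    intro κ h1 h2
    rw [hMeq] at h1 h2
    have hκ := mem_spGL.1 (mem_inf.1 h1).2
    have h3 : ∀ v, Cfsg.sympForm k F ((κ : Matrix _ _ F) *ᵥ v) w = Cfsg.sympForm k F v w := by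
      intro v
      have h4 := hQ.isom (by omega) h2 (((x⁻¹ : GL (Fin k ⊕ Fin k) F) : Matrix _ _ F) *ᵥ v)
      rw [Matrix.mulVec_mulVec, ← Units.val_mul, mul_assoc, mul_inv_cancel, mul_one, Units.val_mul,
        ← Matrix.mulVec_mulVec, hxdef, tvG_inv_mulVec, tvG_inv_mulVec, hQ.add_smul hw, hQ.add_smul hw,
        hQ.isom (by omega) h1] at h4
      have h5 : (Cfsg.sympForm k F ((κ : Matrix _ _ F) *ᵥ v) w - Cfsg.sympForm k F v w) *
          (Cfsg.sympForm k F ((κ : Matrix _ _ F) *ᵥ v) w - Cfsg.sympForm k F v w) = 0 := by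
        linear_combination -h4 + Cfsg.sympForm k F v w *
          (Cfsg.sympForm k F v w - Cfsg.sympForm k F ((κ : Matrix _ _ F) *ᵥ v) w) * hchar
      exact sub_eq_zero.1 (mul_self_eq_zero.1 h5)
    apply eq_of_forall_sympForm_left
    intro y
    have h6 := h3 (((κ⁻¹ : GL (Fin k ⊕ Fin k) F) : Matrix _ _ F) *ᵥ y)
    rw [← hκ (((κ⁻¹ : GL (Fin k ⊕ Fin k) F) : Matrix _ _ F) *ᵥ y) w, Matrix.mulVec_mulVec, ← Units.val_mul,
      mul_inv_cancel, Units.val_one, Matrix.one_mulVec] at h6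
    exact h6.symm
  have key2 : ∀ κ, κ ∈ m.hat A → (κ : Matrix _ _ F) *ᵥ w = w → x⁻¹ * κ * x ∈ m.hat A := by
    intro κ h1 h2
    rw [hxdef, conj_tvG (m.hat_le A h1) h2]
    exact h1
  have hgA : g ∈ m.hat A := by rw [hMeq]; exact hgM
  have h7 := kill_M0 h m hxS (fun e => hxM (hA e)) hgA (by
    intro κ h1 h2
    have h3 := key κ h1 h2
    apply key2 _ ((m.hat A).mul_mem ((m.hat A).mul_mem hgA h1) ((m.hat A).inv_mem hgA))
    rw [Units.val_mul, Units.val_mul, ← Matrix.mulVec_mulVec, ← Matrix.mulVec_mulVec, hgw', Matrix.mulVec_smul,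
      Matrix.mulVec_smul, h3, hgw, smul_smul, inv_mul_cancel₀ hc0, one_smul])
  have h8 := key g hgA h7
  rw [hgw] at h8
  apply hc1
  have h9 : (c - 1) • w = 0 := by rw [sub_smul, h8, one_smul, sub_self]
  rcases smul_eq_zero.1 h9 with h10 | h10
  · exact sub_eq_zero.1 h10
  · exact absurd h10 hw0

end C8

end Cfsg.Agent.H673.EP
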